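import Cfsg.Agent.Lib.CI2.RO

/-!
# The torus of a Bender group is irreducible on `Q/Z`
-/

set_option autoImplicit false

namespace Cfsg.Lib.Suz
open Subgroup Cfsg.Lib Cfsg.Lib.FT

variable {G : Type*} [Group G] [Finite G] {H Q : Subgroup G} {t : G} (h : RO H Q t) (h2 : Rank2 Q)
include h h2

theorem RO.sq_mem_Z {x : G} (hx : x ∈ Q) : x * x ∈ zsub Q := by
  rcases (h.concl h2).2 with e | ⟨e, -⟩
  · rw [e x hx]; exact one_mem _
  · exact (h.higman h2 e).1 x hx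

theorem RO.sq_mul_Z {x z : G} (hx : x ∈ Q) (hz : z ∈ zsub Q) : x * z * (x * z) = x * x := by
  rw [mul_assoc, ← mul_assoc z, h.Z_comm h2 hz hx, mul_assoc x z, ((h.mem_Z h2).1 hz).2, mul_one]

theorem RO.sq_conj {d x z : G} (hx : x ∈ Q) (hz : z ∈ zsub Q) (e : d * x * d⁻¹ = x * z) :
    d * (x * x) = x * x * d := by
  have := h.sq_mul_Z h2 hx hz
  rw [← e] at this
  rw [← mul_inv_eq_iff_eq_mul, show d * (x * x) * d⁻¹ = d * x * d⁻¹ * (d * x * d⁻¹) by group, this]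

theorem RO.comm_of_mod {d x z : G} (hd : d ∈ dsub H t) (hz : z ∈ zsub Q) (hzd : z * d = d * z)
    (e : d * x * d⁻¹ = x * z) : d * x = x * d := by
  have h1 : Commute (d * d) x := by
    have : d * d * x * (d * d)⁻¹ = x := by
      rw [show d * d * x * (d * d)⁻¹ = d * (d * x * d⁻¹) * d⁻¹ by group, e,
        show d * (x * z) * d⁻¹ = d * x * d⁻¹ * (d * z * d⁻¹) by group, e, ← hzd, mul_inv_cancel_right,
        mul_assoc, ((h.mem_Z h2).1 hz).2, mul_one]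
    exact mul_inv_eq_iff_eq_mul.1 this
  obtain ⟨n, hn⟩ := exists_sqrt_of_odd (h.odd_orderOf_D hd)
  rw [← (Commute.refl d).mul_pow] at hn
  exact hn ▸ (h1.pow_left n).eq

theorem RO.eq_one_of_cent (hf : dsub H t ⊓ C[Q] = ⊥) {y : G} (hy : y ∈ Q) (hyZ : y ∉ zsub Q) {d : G}
    (hd : d ∈ dsub H t) (hc : ∀ x ∈ Q, ∃ z ∈ zsub Q, d * x * d⁻¹ = x * z) : d = 1 := by
  have h1 : ∀ z ∈ zsub Q, z * d = d * z := fun z hz => by
    by_cases z1 : z = 1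
    · simp [z1]
    obtain ⟨k, hk, e⟩ := h.exists_K_conj (mul_mem hy hy) ((h.mem_Z h2).1 (h.sq_mem_Z h2 hy)).2
      (fun e => hyZ ((h.mem_Z h2).2 ⟨hy, e⟩)) (h.Z_le h2 hz) ((h.mem_Z h2).1 hz).2 z1
    have hx := h.normQ' (h.D_le hk.1) hy
    obtain ⟨z', hz', e'⟩ := hc _ hx
    rw [← e, show k⁻¹ * (y * y) * k = k⁻¹ * y * k * (k⁻¹ * y * k) by group]
    exact (h.sq_conj h2 hx hz' e').symm
  refine mem_bot.1 (hf ▸ ⟨hd, mem_centralizer_iff.2 fun x hx => ?_⟩)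
  obtain ⟨z, hz, e⟩ := hc x hx
  exact (h.comm_of_mod h2 hd hz (h1 z hz) e).symm

theorem RO.irred (hf : dsub H t ⊓ C[Q] = ⊥) {Y : Subgroup G} (hZ : zsub Q ≤ Y) (hY : Y ≤ Q)
    (hn : ∀ d ∈ dsub H t, ∀ y ∈ Y, d * y * d⁻¹ ∈ Y) : Y = zsub Q ∨ Y = Q := by
  by_contra! hh
  obtain ⟨x, hx, hxZ⟩ := SetLike.exists_of_lt (lt_of_le_of_ne hZ hh.1.symm)
  have xQ := hY hx
  have x2 : x * x ≠ 1 := fun e => hxZ ((h.mem_Z h2).2 ⟨xQ, e⟩)
  have x4 := ((h.mem_Z h2).1 (h.sq_mem_Z h2 xQ)).2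
  have nZ : ∀ d ∈ H, ∀ z ∈ zsub Q, ∀ z' ∈ zsub Q, z' ≠ d * x * d⁻¹ * z := fun d hd z hz z' hz' e => hxZ (by
    have := h.Z_norm' h2 hd (mul_mem hz' (inv_mem hz))
    rwa [e, show d⁻¹ * (d * x * d⁻¹ * z * z⁻¹) * d = x by group] at this)
  let F : Option (ksub H t) × zsub Q → Y := fun p => match p with
    | (none, z) => ⟨z, hZ z.2⟩
    | (some k, z) => ⟨k * x * k⁻¹ * z, mul_mem (hn _ (h.K_le h2 k.2) x hx) (hZ z.2)⟩
  have Fi : Function.Injective F := by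
    rintro ⟨_ | k, z⟩ ⟨_ | k', z'⟩ e <;> simp only [F, Subtype.mk.injEq] at e
    · rw [Subtype.ext e]
    · exact (nZ _ (h.D_le (h.K_le h2 k'.2)) _ z'.2 _ z.2 e).elim
    · exact (nZ _ (h.D_le (h.K_le h2 k.2)) _ z.2 _ z'.2 e.symm).elim
    · have e1 := h.sq_mul_Z h2 (h.norm _ (h.D_le (h.K_le h2 k.2)) x xQ) z.2
      erw [e, h.sq_mul_Z h2 (h.norm _ (h.D_le (h.K_le h2 k'.2)) x xQ) z'.2] at e1
      have e2 : k = k' := inv_injective (Subtype.ext (h.K_conj_inj (mul_mem xQ xQ) x4 x2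
        ((h.mem_K h2).1 (inv_mem k.2)) ((h.mem_K h2).1 (inv_mem k'.2)) (by simpa [mul_assoc] using e1.symm)))
      subst e2
      rw [Subtype.ext (mul_left_cancel e)]
  have cF : Nat.card (Option (ksub H t) × zsub Q) = Nat.card (zsub Q) * Nat.card (zsub Q) := by
    rw [Nat.card_prod, Finite.card_option, h.card_K h2]
  have c1 := cF ▸ Nat.card_le_card_of_injective F Fi
  have sr : ∀ {X : Subgroup G}, X ≤ Q → (∀ d ∈ dsub H t, ∀ y ∈ X, d * y * d⁻¹ ∈ X) →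
      Nat.card (ksub H t) ∣ Nat.card X - 1 := fun {X} hX hXn =>
    Semiregular.card_dvd_pred (fun k hk k1 => eq_bot_iff.2 fun y hy => mem_bot.2
      (h.K_fpf ((h.mem_K h2).1 hk) k1 (hX hy.1) (mem_C1.1 hy.2).symm))
      fun k hk => mem_normalizer_fintype (hXn k (h.K_le h2 hk))
  have d1 := sr hY hn
  have d2 := sr le_rfl fun d hd => h.norm d (h.D_le hd)
  have m := relIndex_mul_card hY
  have i1 : Y.relIndex Q ≠ 1 := fun e => hh.2 (le_antisymm hY (relIndex_eq_one.1 e))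
  have i0 : Y.relIndex Q ≠ 0 := fun e => by rw [e, zero_mul] at m; exact Nat.card_pos.ne m
  have cK := h.card_K h2
  have cK0 : 0 < Nat.card (ksub H t) := Nat.card_pos
  have cY0 : 0 < Nat.card Y := Nat.card_pos
  generalize Y.relIndex Q = i at m i1 i0
  have c2 : Nat.card (zsub Q) ≤ i := by
    obtain ⟨j, rfl⟩ := Nat.exists_eq_succ_of_ne_zero i0
    obtain ⟨y, hy⟩ := Nat.exists_eq_succ_of_ne_zero cY0.ne'
    rw [← m, hy, show j.succ * y.succ - 1 = j + j.succ * y by simp [Nat.mul_succ]; omega] at d2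
    rw [hy, Nat.succ_sub_one] at d1
    have := Nat.le_of_dvd (by omega) ((Nat.dvd_add_left (d1.mul_left _)).1 d2)
    omega
  have c3 : Nat.card (zsub Q) * Nat.card Y ≤ Nat.card Q := m ▸ Nat.mul_le_mul_right _ c2
  have c4 : Nat.card Q ≠ Nat.card (zsub Q) ^ 2 := fun e => by nlinarith
  rcases (h.concl h2).2 with e | ⟨na, e | ⟨e, d, hd, hdZ, y, hy, hyd⟩⟩
  · exact x2 (e x xQ)
  · exact c4 e
  obtain ⟨-, hs⟩ := (h.higman h2 na).2.resolve_left c4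
  have c5 : Nat.card Y ≤ Nat.card (Option (ksub H t) × zsub Q) := by
    rw [cF]; exact Nat.le_of_mul_le_mul_left (c3.trans (e.le.trans (le_of_eq (by ring)))) (by omega)
  obtain ⟨⟨_ | k, z⟩, e'⟩ := (Fi.bijective_of_nat_card_le c5).2 ⟨_, hn d hd x hx⟩ <;>
    simp only [F, Subtype.mk.injEq] at e'
  · exact nZ d (h.D_le hd) 1 (one_mem _) _ z.2 (by rw [e', mul_one])
  have e1 := h.sq_mul_Z h2 (h.norm _ (h.D_le (h.K_le h2 k.2)) x xQ) z.2
  erw [e'] at e1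
  have e2 : (k : G) = 1 := h.K_eq_one_of_comm (mul_mem xQ xQ) x4 x2 ((h.mem_K h2).1 k.2) (by
    rw [← mul_inv_eq_iff_eq_mul, show (k : G) * (x * x) * (k : G)⁻¹ = k * x * k⁻¹ * (k * x * k⁻¹) by
      simp [mul_assoc]]
    erw [← e1]
    rw [show d * x * d⁻¹ * (d * x * d⁻¹) = d * (x * x) * d⁻¹ by group,
      ← hdZ _ (h.sq_mem_Z h2 xQ), mul_inv_cancel_right])
  refine hxZ (h.mem_Z_of_W h2 hf (fun _ => h.sq_mem_Z h2) e hs (h.mem_W.2 ⟨hd, hdZ⟩)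
    (fun e => hyd (by simp [e])) xQ (h.comm_of_mod h2 hd z.2 (hdZ _ z.2) ?_))
  simpa [e2] using e'.symm

end Cfsg.Lib.Suz
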