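import Cfsg.Agent.Lib.SCD.Irr
import Cfsg.Agent.Lib.Big.ZD
import Cfsg.Agent.Lib.Big.Bender
import Cfsg.Agent.Lib.Connect.Basic
import Cfsg.Agent.Lib.SC.Basic
import Cfsg.Agent.Lib.FT.GW.Dih

/-!
# Strongly closed 2-subgroups whose elements fix a unique point
-/

set_option autoImplicit false

namespace Cfsg.Lib.SCD
open Subgroup Cfsg.Lib Cfsg.Lib.FT Cfsg.Lib.GW

variable {G : Type*} [Group G]

structure Hy (T S H : Subgroup G) : Prop where
  syl : IsSylowIn 2 T ⊤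
  le : S ≤ T
  sc : ∀ x ∈ S, ∀ g, g * x * g⁻¹ ∈ T → g * x * g⁻¹ ∈ S
  ne : H ≠ ⊤
  tH : T ≤ H
  fix : ∀ s ∈ S, s ≠ 1 → ∀ g, g * s * g⁻¹ ∈ H → g ∈ H

/-- conjugates of involutions of `S` -/
def cls (S : Subgroup G) : Set G := {d | orderOf d = 2 ∧ ∃ g, g * d * g⁻¹ ∈ S}

theorem cls_conj {S : Subgroup G} {d : G} (h : d ∈ cls S) (g : G) : g * d * g⁻¹ ∈ cls S :=
  let ⟨h1, k, hk⟩ := h
  ⟨by rw [← h1]; exact (MulAut.conj g).orderOf_eq d, k * g⁻¹, by simpa [mul_assoc] using hk⟩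

instance (S : Subgroup G) : (closure (cls S)).Normal :=
  ⟨fun _ hx g => (closure_le ((closure (cls S)).comap (MulAut.conj g).toMonoidHom)).2
    (fun _ hd => subset_closure (cls_conj hd g)) hx⟩

theorem cls_le (S : Subgroup G) : closure (cls S) ≤ normalClosure S :=
  (closure_le _).2 fun d ⟨_, g, hg⟩ => by
    simpa [mul_assoc] using normalClosure_normal.conj_mem _ (subset_normalClosure hg) g⁻¹

theorem mem_cl {S : Subgroup G} {s : G} (hs : s ∈ S) (h : s * s = 1) : s ∈ closure (cls S) := by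
  by_cases e : s = 1
  · exact e ▸ one_mem _
  · exact subset_closure ⟨orderOf_eq_prime (by rwa [pow_two]) e, 1, by simpa using hs⟩

variable [Finite G] {T S H : Subgroup G}

theorem Hy.mk' (syl : IsSylowIn 2 T ⊤) (sc : IsStronglyClosed S T) (ne : H ≠ ⊤) (hS : S ≠ ⊥)
    (hC : ∀ s ∈ S, s ≠ 1 → C1[s] ≤ H) (hN : N[S] ≤ H) : Hy T S H := by
  have tH : T ≤ H := fun t ht => hN (mem_normalizer_fintype fun x hx =>
    sc.2 x hx t (mul_mem (mul_mem ht (sc.1 hx)) (inv_mem ht)))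
  have key : ∀ U ≤ S, ∀ g : G, g •ᶜ U ≤ H → ∃ k ∈ H, ∀ u ∈ U, k * g * u * (k * g)⁻¹ ∈ S := fun U hU g hg => by
    obtain ⟨k, hk, e⟩ := (syl.mono tH le_top).exists_conj_le
      (isPGroup_conj_iff.2 (syl.isPGroup.to_le (hU.trans sc.1))) hg
    exact ⟨k, hk, fun u hu => sc.2 u (hU hu) _
      (by simpa [mul_assoc] using e (conj_mem_conj (conj_mem_conj hu g) k))⟩
  have k2 : ∀ s ∈ S, s ≠ 1 → ∀ g : G, g * s * g⁻¹ ∈ H → g •ᶜ C1[s] ≤ H := fun s hs s1 g hg => by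
    obtain ⟨k, hk, e⟩ := key _ (zpowers_le.2 hs) g (by rw [conj_zpowers]; exact zpowers_le.2 hg)
    have := hC _ (e s (mem_zpowers s)) (by rwa [Ne, mul_inv_eq_one, mul_eq_left])
    rw [c1_conj, ← conj_conj] at this
    rintro _ ⟨x, hx, rfl⟩
    simpa [mul_assoc] using mul_mem (mul_mem (inv_mem hk) (this (conj_mem_conj (conj_mem_conj hx g) k))) hk
  refine ⟨syl, sc.1, sc.2, ne, tH, fun s hs s1 g hg => ?_⟩
  obtain ⟨z, hz, z1, -, zc⟩ := h9_exists_central_mem (syl.isPGroup.to_le sc.1) hS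
  obtain ⟨k, hk, e⟩ := key S le_rfl g ((map_mono fun y hy => mem_c1.2 (zc y hy).symm).trans
    (k2 z hz z1 g (k2 s hs s1 g hg (conj_mem_conj (mem_c1.2 (zc s hs)) g))))
  simpa using mul_mem (inv_mem hk) (hN (mem_normalizer_fintype e))

namespace Hy
variable (h : Hy T S H)
include h

omit [Finite G] in
theorem mem_of_cls {d : G} (hd : d ∈ cls S) (hT : d ∈ T) : d ∈ S := by
  obtain ⟨-, g, hg⟩ := hd
  simpa [mul_assoc] using h.sc _ hg g⁻¹ (by simpa [mul_assoc] using hT)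

omit [Finite G] in
theorem hfix (d : G) (hd : d ∈ cls S) (hH : d ∈ H) (g : G) (hg : g * d * g⁻¹ ∈ H) : g ∈ H := by
  obtain ⟨h1, k, hk⟩ := hd
  have h2 : k * d * k⁻¹ ≠ 1 := by simpa [mul_inv_eq_one] using fun e : d = 1 => by simp [e] at h1
  simpa using mul_mem (h.fix _ hk h2 (g * k⁻¹) (by simpa [mul_assoc] using hg))
    (inv_mem (h.fix _ hk h2 k⁻¹ (by simpa [mul_assoc] using hH)))

theorem hprod (x : G) (hx : x ∈ cls S) (y : G) (hy : y ∈ cls S) (_ : x ∈ H) (_ : y ∈ H) (hne : x ≠ y)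
    (hc : Commute x y) : x * y ∈ cls S := by
  have f : Four x y := ⟨hx.1, hy.1, hne.symm, hc.symm⟩
  obtain ⟨k, -, e⟩ := h.syl.exists_conj_le f.isPGroup le_top
  rw [four_conj, four_le_iff] at e
  exact ⟨f.hw, k, by
    simpa [mul_assoc] using mul_mem (h.mem_of_cls (cls_conj hx k) e.1) (h.mem_of_cls (cls_conj hy k) e.2)⟩

theorem hne (hS : S ≠ ⊥) : ∃ d ∈ cls S, d ∈ H := by
  obtain ⟨z, hz, z1, z2, -⟩ := h9_exists_central_mem (h.syl.isPGroup.to_le h.le) hS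
  exact ⟨z, ⟨orderOf_eq_prime z2 z1, 1, by simpa using hz⟩, h.tH (h.le hz)⟩

theorem pure (hS : S ≠ ⊥) : ∀ u ∈ closure (cls S), orderOf u = 2 → u ∈ cls S :=
  Big.zd_pure h.ne (fun _ hd => hd.1) (fun _ => cls_conj) (h.hne hS) h.hfix h.hprod

theorem se (hS : S ≠ ⊥) {X : Subgroup G} (hX : closure (cls S) ≤ X)
    (hp : ∀ u ∈ X, orderOf u = 2 → u ∈ cls S) : IsStronglyEmbedded ((H ⊓ X).subgroupOf X) := by
  obtain ⟨s, hs, hsM⟩ := h.hne hS
  refine ⟨fun e => h.ne (eq_top_iff.2 fun g _ => h.hfix s hs hsM g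
    (e.ge (mem_top ⟨_, hX (subset_closure (cls_conj hs g))⟩)).1), Nat.not_odd_iff_even.1 fun ho =>
      not_mem_of_odd ho (t := ⟨s, hX (subset_closure hs)⟩) (by rw [← hs.1]; exact (orderOf_coe _).symm)
        ⟨hsM, hX (subset_closure hs)⟩, fun g hg => odd_of_forall ?_⟩
  rintro _ ⟨h1, u, hu, rfl⟩ hi
  exact hg ⟨h.hfix u (hp u u.2 (by rw [orderOf_coe, ← hi]; exact ((MulAut.conj g).orderOf_eq u).symm))
    hu.1 g h1.1, g.2⟩

theorem map {G' : Type*} [Group G'] (f : G →* G') (hs : Function.Surjective f) (hk : ¬ 2 ∣ Nat.card f.ker)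
    (hH : f.ker ≤ H) : Hy (T.map f) (S.map f) (H.map f) := by
  have m : ∀ {g}, f g ∈ H.map f → g ∈ H := fun hg => by
    rwa [← mem_comap, comap_map_eq, sup_eq_left.2 hH] at hg
  have sc := (SCl.of_sylow h.syl fun x hx g hg => by
    simpa [mul_assoc] using h.sc _ hg g⁻¹ (by simpa [mul_assoc] using hx)).map (h.syl.isPGroup.to_le h.le) f hs hk
  refine ⟨by simpa [map_top_of_surjective f hs] using h.syl.map f, map_mono h.le, fun x hx g hg =>
    sc _ (h.syl.isPGroup.map f) (map_mono h.le) _ hg g⁻¹ (by simpa [mul_assoc] using hx),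
    fun e => h.ne (eq_top_iff.2 fun g _ => m (e ▸ mem_top _)), map_mono h.tH, ?_⟩
  rintro _ ⟨s, hs', rfl⟩ s1 g hg
  obtain ⟨g, rfl⟩ := hs g
  exact mem_map_of_mem f (h.fix s hs' (fun e => s1 (by rw [e, map_one])) g (m (by simpa using hg)))

theorem core (hO : oddCore G = ⊥) (hr : ¬ PRankLE 2 1 S) :
    T ⊓ normalClosure S ≤ S ∨ ∀ s ∈ S, s * s = 1 := by
  obtain ⟨E, hE, ea, c4⟩ := not_pRankLE_subgroup_iff.1 hr
  have hS : S ≠ ⊥ := fun e => by rw [le_bot_iff.1 (hE.trans e.le), card_bot] at c4; omega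
  set L := closure (cls S) with hL
  have nL : L.Normal := inferInstance
  have rL : ¬ PRankLE 2 1 L := not_pRankLE_subgroup_iff.2
    ⟨E, fun x hx => mem_cl (hE hx) (by rw [← pow_two]; exact ea.2 x hx), ea, c4⟩
  have oL : oddCore L = ⊥ := by
    rw [oddCore, pPrimeCore_subgroup_eq_of_isSubnormal nL.isSubnormal, show pPrimeCore 2 G = ⊥ from hO,
      bot_subgroupOf]
  have hM := h.se hS le_rfl (h.pure hS)
  obtain ⟨Q, e1, e2, -⟩ := Big.bender_local oL rL hM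
  obtain ⟨t, ro⟩ := Suz.exists_RO_of_local hM Q e1 e2
  have rk := Suz.rank2_of_not_pRankLE rL Q
  have hf := ro.faithful_of_oddCore oL
  have mM : ∀ {x : L}, x ∈ (H ⊓ L).subgroupOf L ↔ (x : G) ∈ H := fun {x} => ⟨fun e => e.1, fun e => ⟨e, x.2⟩⟩
  have mQ : ∀ {x : L}, x ∈ (Q : Subgroup L) ↔ (x : G) ∈ T := by
    obtain ⟨P, hP⟩ := (h.syl.inf_of_le_normalizer (N := L) le_top le_normalizer_of_normal).exists_sylow'
    have : (Q : Subgroup L) = P := P.3 Q.2 fun x hx => by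
      obtain ⟨k, hk⟩ := P.2 ⟨x, hx⟩
      exact ro.mem_Q_of_two_pow (mM.2 (h.tH (hP.le hx).1)) (k := k) (congrArg Subtype.val hk)
    intro x; rw [this, hP]; exact ⟨fun e => e.1, fun e => ⟨e, x.2⟩⟩
  have tt : (t : G) * t = 1 := congrArg Subtype.val ro.tt
  have ti : (t : G)⁻¹ = t := inv_eq_of_mul_eq_one_right tt
  -- decomposition of elements of `S`
  have dec : ∀ s ∈ T, ∃ q ∈ (Q : Subgroup L), (t : G) * ((q : G)⁻¹ * s) * (t : G)⁻¹ ∈ H := fun s hs => by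
    obtain ⟨q, hq, k, hk, e⟩ := ro.bru' (g := ⟨s * t * s⁻¹, nL.conj_mem _ t.2 s⟩) fun e => ro.t_not (mM.2 (by
      simpa [mul_assoc] using mul_mem (mul_mem (inv_mem (h.tH hs)) (mM.1 e)) (h.tH hs)))
    have e' : s * t * s⁻¹ = q * t * k := congrArg Subtype.val e
    refine ⟨q, hq, inv_mem_iff.1 ?_⟩
    rw [show ((t : G) * ((q : G)⁻¹ * s) * (t : G)⁻¹)⁻¹ = t * s⁻¹ * (q * t * k) * (k : G)⁻¹ * ((t : G)⁻¹ * (t : G)⁻¹) by
      group, ← e', ti, tt, show t * s⁻¹ * (s * t * s⁻¹) = t * t * s⁻¹ by group, tt, mul_one, one_mul]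
    exact mul_mem (inv_mem (h.tH hs)) (inv_mem (mM.1 hk))
  have fin : ∀ s ∈ S, ∀ q : L, (q : G) ∈ S → (t : G) * ((q : G)⁻¹ * s) * (t : G)⁻¹ ∈ H → s = q :=
    fun s hs q hq e => by
      by_contra hne
      exact ro.t_not (mM.2 (h.fix _ (mul_mem (inv_mem hq) hs) (fun e => hne (inv_mul_eq_one.1 e).symm) _ e))
  have case1 : (Q : Subgroup L) ≤ S.subgroupOf L → T ⊓ normalClosure S ≤ S := fun e x hx =>
    e (mQ.2 hx.1 : (⟨x, normalClosure_le_normal (fun s hs => by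
      obtain ⟨q, hq, e'⟩ := dec s (h.le hs)
      exact fin s hs q (e hq) e' ▸ q.2) hx.2⟩ : L) ∈ _)
  have zS : Suz.zsub (Q : Subgroup L) ≤ S.subgroupOf L := fun z hz => by
    obtain ⟨h1, h2⟩ := (ro.mem_Z rk).1 hz
    by_cases e : z = 1
    · exact e ▸ one_mem _
    · exact h.mem_of_cls (h.pure hS z z.2 (by
        rw [orderOf_coe]; exact orderOf_eq_prime (by rwa [pow_two]) e)) (mQ.1 h1)
  rcases ro.irred rk hf zS (fun x hx => mQ.2 (h.le hx)) (fun d hd y hy => h.sc _ hy d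
    (mQ.1 (ro.norm d (ro.D_le hd) y (mQ.2 (h.le hy))))) with e | e
  swap
  · exact Or.inl (case1 e.ge)
  by_cases hQ : (Q : Subgroup L) ≤ Suz.zsub (Q : Subgroup L)
  · exact Or.inl (case1 (hQ.trans zS))
  obtain ⟨y, hy, hyZ⟩ := SetLike.not_le_iff_exists.1 hQ
  refine Or.inr fun s hs => ?_
  have sH := h.tH (h.le hs)
  -- elements of `H` acting trivially on `Q/Z`
  let P : G → Prop := fun g => ∀ x ∈ (Q : Subgroup L), ∃ z ∈ Suz.zsub (Q : Subgroup L),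
    g * x * g⁻¹ = x * z
  have Ps : ∀ s ∈ S, P s := fun s hs x hx => by
    have h1 := mQ.1 hx
    refine ⟨⟨(x : G)⁻¹ * s * x * s⁻¹, by
      simpa [mul_assoc] using mul_mem (inv_mem x.2) (nL.conj_mem _ x.2 s)⟩, e.le (mul_mem (?_ : _ ∈ S) (inv_mem hs)), by group⟩
    simpa using h.sc s hs (x : G)⁻¹ (by simpa using mul_mem (mul_mem (inv_mem h1) (h.le hs)) h1)
  have Pc : ∀ {g : G} {k : L}, k ∈ (H ⊓ L).subgroupOf L → P g → P (k * g * k⁻¹) := fun {g k} hk hg x hx => by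
    obtain ⟨z, hz, e⟩ := hg _ (ro.normQ' hk hx)
    refine ⟨_, ro.Z_norm rk hk hz, ?_⟩
    push_cast at e ⊢
    rw [show (k : G) * g * (k : G)⁻¹ * x * ((k : G) * g * (k : G)⁻¹)⁻¹ =
      k * (g * ((k : G)⁻¹ * x * k) * g⁻¹) * (k : G)⁻¹ by group, e]; group
  have Pm : ∀ {g g' : G}, P g → P g' → P (g * g') := fun {g g'} hg hg' x hx => by
    obtain ⟨z, hz, e1⟩ := hg' x hx
    obtain ⟨z', hz', e2⟩ := hg _ (mul_mem hx (ro.Z_le rk hz))
    refine ⟨_, mul_mem hz hz', ?_⟩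
    push_cast at e2 ⊢
    rw [show g * g' * x * (g * g')⁻¹ = g * (g' * x * g'⁻¹) * g⁻¹ by group, e1, e2, mul_assoc]
  have PQ : ∀ c ∈ (H ⊓ L).subgroupOf L, P c → c ∈ (Q : Subgroup L) := fun c hc pc => by
    obtain ⟨d, hd, q, hq, rfl⟩ := ro.dec'' hc
    rw [ro.eq_one_of_cent rk hf hy hyZ hd fun x hx => ?_, one_mul]
    · exact hq
    obtain ⟨z, hz, e⟩ := pc _ (mul_mem (mul_mem (inv_mem hq) hx) hq)
    refine ⟨_, mul_mem (ro.cm_mem rk (fun _ => ro.sq_mem_Z rk) hx hq) hz, Subtype.ext ?_⟩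
    push_cast at e ⊢
    rw [show (d : G) * x * (d : G)⁻¹ = d * q * ((q : G)⁻¹ * x * q) * ((d : G) * q)⁻¹ by group, e, Suz.cm]
    push_cast; group
  obtain ⟨k, hk, k1⟩ := ro.exists_K_ne_one rk
  have kM := ro.D_le hk.1
  obtain ⟨q, hq, e3⟩ := dec s (h.le hs)
  let c : L := ⟨k * s * k⁻¹ * s⁻¹, by
    simpa [mul_assoc] using mul_mem k.2 (nL.conj_mem _ (inv_mem k.2) s)⟩
  have cQ : c ∈ (Q : Subgroup L) := PQ c (mM.2 (mul_mem
    (mul_mem (mul_mem (mM.1 kM) sH) (inv_mem (mM.1 kM))) (inv_mem sH))) (Pm (Pc kM (Ps s hs)) (Ps _ (inv_mem hs)))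
  have cZ : c ∈ Suz.zsub (Q : Subgroup L) := e.le (mul_mem (h.sc s hs k (by
    simpa [c] using mul_mem (mQ.1 cQ) (h.le hs))) (inv_mem hs))
  have e4 := ro.inf _ (mul_mem (mul_mem (ro.norm k kM _ (inv_mem hq)) cQ) hq) (mM.2 (by
    have e5 : (t : G) * k * (t : G)⁻¹ ∈ H := by rw [ti]; exact mM.1 (ro.mem_D.1 hk.1).2
    have := mul_mem (mul_mem (mul_mem e5 e3) (inv_mem e5)) (inv_mem e3)
    push_cast
    rw [← ti]
    nth_rw 1 [ti]
    simpa [c, mul_assoc] using this))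
  have e5 := ro.K_fpf hk k1 (mul_mem hq hq) (ro.sq_conj rk hq cZ (by
    rw [← ro.Z_comm rk cZ hq, ← mul_one (k * q * k⁻¹), ← e4]; group))
  rw [fin s hs q (zS ((ro.mem_Z rk).2 ⟨hq, e5⟩)) e3]
  exact congrArg Subtype.val e5

theorem main (hr : ¬ PRankLE 2 1 S) : T ⊓ normalClosure S ≤ S ∨ ∀ s ∈ S, s * s = 1 := by
  obtain ⟨E, hE, ea, c4⟩ := not_pRankLE_subgroup_iff.1 hr
  let f := QuotientGroup.mk' (pPrimeCore 2 G)
  have hk : ¬ 2 ∣ Nat.card f.ker := by rw [QuotientGroup.ker_mk']; exact not_dvd_card_pPrimeCore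
  have inj : ∀ x ∈ T, f x = 1 → x = 1 := fun x hx e => Bender.eq_one_of_odd_of_two h.syl.isPGroup hx
    (odd_orderOf (X := f.ker) (Nat.odd_iff.2 (by omega)) e)
  have hH : f.ker ≤ H := (CoprimeAct.of_isPGroup (elemAb_isPGroup ea) hk
    le_normalizer_of_normal).le_of_centralizer_singleton ea.1 (elemAb_not_isCyclic ea c4) fun a ha a1 g hg =>
      h.fix a (hE ha) a1 g (by rw [mem_c1.1 hg.2, mul_inv_cancel_right]; exact h.tH (h.le (hE ha)))
  refine ((h.map f (QuotientGroup.mk'_surjective _) hk hH).core pPrimeCore_quotient_pPrimeCore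
    (not_pRankLE_subgroup_iff.2 ⟨E.map f, map_mono hE, Quad.ea_map f ea, by
      rwa [Suz.card_map_of_injOn f fun x hx => inj x (h.le (hE hx))]⟩)).imp (fun e x hx => ?_) fun e s hs => ?_
  · have h1 : normalClosure (S : Set G) ≤ (normalClosure ((S.map f : Subgroup _) : Set _)).comap f :=
      normalClosure_le_normal fun s hs => mem_comap.2 (subset_normalClosure (mem_map_of_mem f hs))
    obtain ⟨s, hs, e'⟩ := e (mem_inf.2 ⟨mem_map_of_mem f hx.1, h1 hx.2⟩)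
    rw [inv_mul_eq_one.1 (inj _ (mul_mem (inv_mem hx.1) (h.le hs)) (by rw [map_mul, map_inv, e', inv_mul_cancel]))]
    exact hs
  · exact inj _ (h.le (mul_mem hs hs)) (by rw [map_mul]; exact e _ (mem_map_of_mem f hs))

theorem concl (hS : S ≠ ⊥) (hc : T ⊓ normalClosure S ≤ S ∨ ∀ s ∈ S, s * s = 1) :
    IsStronglyEmbedded ((H ⊓ normalClosure S).subgroupOf (normalClosure S)) ∧
      (S = T ⊓ normalClosure S ∨ S = omegaOne 2 (T ⊓ normalClosure S)) := by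
  have h1 : S ≤ T ⊓ normalClosure S := le_inf h.le le_normalClosure
  rcases hc with e | e
  · refine ⟨h.se hS (cls_le S) fun u hu ho => ?_, Or.inl (le_antisymm h1 e)⟩
    obtain ⟨k, -, e'⟩ := h.syl.exists_conj_le
      (isPGroup_zpowers_two (by rw [← pow_two, ← ho, pow_orderOf_eq_one] : u * u = 1)) le_top
    exact ⟨ho, k, e ⟨e' (conj_mem_conj (mem_zpowers u) k), normalClosure_normal.conj_mem _ hu k⟩⟩
  · have h2 : ∀ u ∈ normalClosure (S : Set G), orderOf u = 2 → u ∈ cls S := fun u hu =>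
      h.pure hS u (normalClosure_le_normal (fun s hs => mem_cl hs (e s hs)) hu)
    refine ⟨h.se hS (cls_le S) h2, Or.inr (le_antisymm (fun s hs => pg_mem_omegaOne (h1 hs) (by
      rw [pow_two, e s hs])) ((closure_le _).2 fun x hx => ?_))⟩
    by_cases x1 : x = 1
    · exact x1 ▸ one_mem _
    · exact h.mem_of_cls (h2 x hx.1.2 (orderOf_eq_prime hx.2 x1)) hx.1.1

end Hy

end Cfsg.Lib.SCD
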